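import Mathlib
import Cfsg.Agent.H82.TS.Star

/-!
Elliptic parts of semisimple elements of a group with root group data (engine T*).

* `exists_conj_mem` : an `r`-element of `K` is conjugate in `K` into `H` when `r ∤ |K : H|`;
* `exists_conj_levi` : an `r`-element `x` of `P_J` is conjugate in `P_J` into `L_J` (`r` prime to `p`);
* `exists_elliptic` **(EX)** : an `r`-element of `GG` has a conjugate in some `L_J` no conjugate of which is in a
  smaller parabolic subgroup;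
* `dvd_relIndex` **(CO)** : then `r ∣ |L_J : L_J ∩ P_{J'}|` for `J' ⊂ J`.
-/

set_option autoImplicit false
set_option linter.unusedSectionVars false

namespace Cfsg.Agent.H27.TS.Ex

open CoxeterSystem Cfsg.Agent.ChevalleyStructure.CoxeterGeom Cfsg.Agent.Tits.Roots Cfsg.Agent.Tits.Core
  Cfsg.Agent.Tits.Exchange Cfsg.Agent.Nodes.Reps Cfsg.Agent.Nodes.BNOf Cfsg.Agent.Nodes.StabComb
  Cfsg.Agent.Nodes.Bruhat Cfsg.Agent.Nodes.OppDec Cfsg.Agent.Nodes.LeviDec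

section General

variable {G : Type*} [Group G]

/-- an `r`-element of `K` is conjugate in `K` into `H` when `r ∤ |K : H|` -/
theorem exists_conj_mem {r : ℕ} (hr : r.Prime) {H K : Subgroup G} {x : G} (hx : x ∈ K) {k : ℕ}
    (hk : x ^ r ^ k = 1) (hi : ¬ r ∣ H.relIndex K) : ∃ s ∈ K, s⁻¹ * x * s ∈ H := by
  have := Fact.mk hr
  have hQ : IsPGroup r ↥(Subgroup.zpowers (⟨x, hx⟩ : K)) := by
    intro g
    obtain ⟨⟨g, hg⟩, hg'⟩ := g
    obtain ⟨m, hm⟩ := Subgroup.mem_zpowers_iff.1 hg'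
    refine ⟨k, ?_⟩
    ext
    have h1 : (g : G) = x ^ m := by
      have := congrArg (Subtype.val : K → G) hm
      simpa using this.symm
    simp only [SubmonoidClass.mk_pow, OneMemClass.coe_one]
    rw [h1, ← zpow_natCast, ← zpow_mul, mul_comm, zpow_mul, zpow_natCast, hk, one_zpow]
  obtain ⟨q, hq⟩ := hQ.nonempty_fixed_point_of_prime_not_dvd_card (K ⧸ H.subgroupOf K) hi
  obtain ⟨s, rfl⟩ := QuotientGroup.mk_surjective q
  have h1 := hq ⟨⟨x, hx⟩, Subgroup.mem_zpowers _⟩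
  have h2 : (QuotientGroup.mk ((⟨x, hx⟩ : K) * s) : K ⧸ H.subgroupOf K) = QuotientGroup.mk s := h1
  rw [eq_comm, QuotientGroup.eq] at h2
  refine ⟨s, s.2, ?_⟩
  have h3 := Subgroup.mem_subgroupOf.1 h2
  simpa [mul_assoc] using h3

/-- `|⟨L, V⟩ : L|` divides `|V|` when `L` normalises `V` -/
theorem relIndex_sup_dvd [Finite G] {L V : Subgroup G} (hLV : L ≤ Subgroup.normalizer (V : Set G)) :
    L.relIndex (L ⊔ V) ∣ Nat.card V := by
  have h1 : (L ⊓ V).relIndex L * L.relIndex (L ⊔ V) = (L ⊓ V).relIndex V * V.relIndex (L ⊔ V) := by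
    rw [Subgroup.relIndex_mul_relIndex _ _ _ inf_le_left le_sup_left,
      Subgroup.relIndex_mul_relIndex _ _ _ inf_le_right le_sup_right]
  have h2 : V.relIndex (L ⊔ V) = V.relIndex L := by
    rw [← Subgroup.relIndex_subgroupOf (L := Subgroup.normalizer (V : Set G)) (sup_le hLV Subgroup.le_normalizer),
      ← Subgroup.relIndex_subgroupOf (L := Subgroup.normalizer (V : Set G)) hLV,
      Subgroup.subgroupOf_sup hLV Subgroup.le_normalizer, Subgroup.relIndex_sup_right]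
  rw [h2, Subgroup.inf_relIndex_left, Subgroup.inf_relIndex_right, mul_comm] at h1
  have h3 : L.relIndex (L ⊔ V) = L.relIndex V :=
    Nat.eq_of_mul_eq_mul_right (Nat.pos_of_dvd_of_pos (Subgroup.relIndex_dvd_card V L) Nat.card_pos) h1
  rw [h3]
  exact Subgroup.relIndex_dvd_card _ _

/-- the primes dividing the order of a `p`-group divide `p` -/
theorem dvd_of_isPGroup [Finite G] {p r : ℕ} (hr : r.Prime) {V : Subgroup G} (hV : IsPGroup p V)
    (h : r ∣ Nat.card V) : r ∣ p := by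
  have := Fact.mk hr
  obtain ⟨v, hv⟩ := exists_prime_orderOf_dvd_card' r h
  obtain ⟨k, hk⟩ := hV v
  have h1 : r ∣ p ^ k := by rw [← hv]; exact orderOf_dvd_of_pow_eq_one hk
  exact hr.dvd_of_dvd_pow h1

/-- an `r`-element `l v`, `l` in a subgroup `L` normalising the `p`-group `V`, is conjugate into `L` -/
theorem exists_conj_of_mul [Finite G] {p r : ℕ} (hr : r.Prime) (hrp : ¬ r ∣ p) {L V : Subgroup G}
    (hLV : L ≤ Subgroup.normalizer (V : Set G)) (hV : IsPGroup p V) {l v : G} (hl : l ∈ L) (hv : v ∈ V)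
    {k : ℕ} (hk : (l * v) ^ r ^ k = 1) : ∃ s ∈ Subgroup.zpowers l ⊔ V, s⁻¹ * (l * v) * s ∈ Subgroup.zpowers l := by
  have h1 : Subgroup.zpowers l ≤ Subgroup.normalizer (V : Set G) := (Subgroup.zpowers_le.2 hl).trans hLV
  refine exists_conj_mem hr (mul_mem (Subgroup.mem_sup_left (Subgroup.mem_zpowers l))
    (Subgroup.mem_sup_right hv)) hk fun h2 => hrp ?_
  exact dvd_of_isPGroup hr hV (h2.trans (relIndex_sup_dvd h1))

end General

variable {I W Y : Type*} [Fintype I] [DecidableEq I] [Group W] [Group Y] {M : CoxeterMatrix I}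
  {cs : CoxeterSystem M W} {A : I → I → ℤ} {h : IsCartan M A} {p : ℕ} {T : Subgroup Y} {n : I → Y}
  {X : (I → ℤ) → Subgroup Y}

theorem PJ_univ_eq : PJ cs h T X Set.univ = GG cs h T X := by
  refine le_antisymm PJ_le_GG ?_
  rw [← LJ_univ]
  exact LJ_le_PJ

variable (R : RGD cs h p T n X)

include R

theorem isPGroup_VJ [Finite W] (J : Set I) : IsPGroup p ↥(VJ cs h X J) :=
  R.isPGroup_Upos.to_le (VJ_le_U J)

/-- an `r`-element of `P_J` is conjugate in `P_J` (by an element of `V_J`) into `L_J` -/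
theorem exists_conj_levi [Finite W] [Finite Y] {r : ℕ} (hr : r.Prime) (hrp : ¬ r ∣ p) {J : Set I} {x : Y}
    (hx : x ∈ PJ cs h T X J) {k : ℕ} (hk : x ^ r ^ k = 1) :
    ∃ s ∈ VJ cs h X J, s⁻¹ * x * s ∈ LJ cs h T X J := by
  obtain ⟨l, hl, v, hv, rfl⟩ := (mem_PJ R).1 hx
  obtain ⟨s, hs, h1⟩ := exists_conj_of_mul hr hrp (LJ_le_normalizer_VJ R J) (isPGroup_VJ R J) hl hv hk
  have h2 : s ∈ ((VJ cs h X J ⊔ Subgroup.zpowers l : Subgroup Y) : Set Y) := by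
    rw [sup_comm]; exact hs
  rw [Subgroup.coe_mul_of_right_le_normalizer_left _ _
    ((Subgroup.zpowers_le.2 hl).trans (LJ_le_normalizer_VJ R J)), Set.mem_mul] at h2
  obtain ⟨a, ha, b, hb, rfl⟩ := h2
  refine ⟨a, ha, ?_⟩
  have hb' : b ∈ LJ cs h T X J := Subgroup.zpowers_le.2 hl hb
  have h3 : a⁻¹ * (l * v) * a = b * ((a * b)⁻¹ * (l * v) * (a * b)) * b⁻¹ := by group
  rw [h3]
  exact mul_mem (mul_mem hb' (Subgroup.zpowers_le.2 hl h1)) (inv_mem hb')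

/-- **(EX)** an `r`-element of `GG` is conjugate to an elliptic element of some `L_J` -/
theorem exists_elliptic [Finite W] [Finite Y] {r : ℕ} (hr : r.Prime) (hrp : ¬ r ∣ p) {x : Y}
    (hx : x ∈ GG cs h T X) {k : ℕ} (hk : x ^ r ^ k = 1) :
    ∃ (g : Y) (J : Set I), g⁻¹ * x * g ∈ LJ cs h T X J ∧
      ∀ J' ⊆ J, ∀ a : Y, a⁻¹ * (g⁻¹ * x * g) * a ∈ PJ cs h T X J' → J' = J := by
  classical
  have hne : {J : Set I | ∃ g : Y, g⁻¹ * x * g ∈ PJ cs h T X J}.Nonempty :=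
    ⟨Set.univ, 1, by rw [PJ_univ_eq]; simpa using hx⟩
  obtain ⟨J, ⟨⟨g, hg⟩, hmin⟩⟩ := (Set.toFinite {J : Set I | ∃ g : Y, g⁻¹ * x * g ∈ PJ cs h T X J}).exists_minimal hne
  have hk' : (g⁻¹ * x * g) ^ r ^ k = 1 := by
    have := conj_pow (i := r ^ k) (a := g⁻¹) (b := x)
    rw [inv_inv] at this
    rw [this, hk]; group
  obtain ⟨s, hs, h1⟩ := exists_conj_levi R hr hrp hg hk'
  have e : ∀ a : Y, a⁻¹ * ((g * s)⁻¹ * x * (g * s)) * a = (g * s * a)⁻¹ * x * (g * s * a) := fun a => by group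
  refine ⟨g * s, J, ?_, ?_⟩
  · have : (g * s)⁻¹ * x * (g * s) = s⁻¹ * (g⁻¹ * x * g) * s := by group
    rw [this]; exact h1
  · intro J' hJ' a ha
    rw [e] at ha
    exact Set.Subset.antisymm hJ' (hmin ⟨_, ha⟩ hJ')

/-- the same, conjugating in `GG` -/
theorem exists_elliptic' [Finite W] [Finite Y] {r : ℕ} (hr : r.Prime) (hrp : ¬ r ∣ p) {x : Y}
    (hx : x ∈ GG cs h T X) {k : ℕ} (hk : x ^ r ^ k = 1) :
    ∃ g ∈ GG cs h T X, ∃ J : Set I, g⁻¹ * x * g ∈ LJ cs h T X J ∧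
      ∀ J' ⊆ J, ∀ a ∈ GG cs h T X, a⁻¹ * (g⁻¹ * x * g) * a ∈ PJ cs h T X J' → J' = J := by
  classical
  have hne : {J : Set I | ∃ g ∈ GG cs h T X, g⁻¹ * x * g ∈ PJ cs h T X J}.Nonempty :=
    ⟨Set.univ, 1, one_mem _, by rw [PJ_univ_eq]; simpa using hx⟩
  obtain ⟨J, ⟨⟨g, hgG, hg⟩, hmin⟩⟩ :=
    (Set.toFinite {J : Set I | ∃ g ∈ GG cs h T X, g⁻¹ * x * g ∈ PJ cs h T X J}).exists_minimal hne
  have hk' : (g⁻¹ * x * g) ^ r ^ k = 1 := by
    have := conj_pow (i := r ^ k) (a := g⁻¹) (b := x)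
    rw [inv_inv] at this
    rw [this, hk]; group
  obtain ⟨s, hs, h1⟩ := exists_conj_levi R hr hrp hg hk'
  have hsG : s ∈ GG cs h T X := PJ_le_GG (J := J) (VJ_le_PJ hs)
  have e : ∀ a : Y, a⁻¹ * ((g * s)⁻¹ * x * (g * s)) * a = (g * s * a)⁻¹ * x * (g * s * a) := fun a => by group
  refine ⟨g * s, mul_mem hgG hsG, J, ?_, ?_⟩
  · have : (g * s)⁻¹ * x * (g * s) = s⁻¹ * (g⁻¹ * x * g) * s := by group
    rw [this]; exact h1
  · intro J' hJ' a haG ha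
    rw [e] at ha
    exact Set.Subset.antisymm hJ' (hmin ⟨_, mul_mem (mul_mem hgG hsG) haG, ha⟩ hJ')

omit R in
/-- **(CO)** an elliptic `r`-element of `L_J`: `r` divides `|L_J : L_J ∩ P_{J'}|` for `J' ⊂ J` -/
theorem dvd_relIndex {r : ℕ} (hr : r.Prime) {J : Set I} {x : Y} (hx : x ∈ LJ cs h T X J) {k : ℕ}
    (hk : x ^ r ^ k = 1) (hE : ∀ J' ⊆ J, ∀ a ∈ LJ cs h T X J, a⁻¹ * x * a ∈ PJ cs h T X J' → J' = J)
    {J' : Set I} (hJ' : J' ⊆ J) (hne : J' ≠ J) :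
    r ∣ (PJ cs h T X J').relIndex (LJ cs h T X J) := by
  by_contra hc
  obtain ⟨s, hs, h1⟩ := exists_conj_mem hr hx hk hc
  exact hne (hE J' hJ' s hs h1)

open Cfsg.Agent.H82.TS

omit R in
/-- `Ell` unfolded -/
theorem ell_iff {J : Set I} {x : Y} :
    Ell cs h T X J x ↔ ∀ J' ⊆ J, ∀ a : Y, a⁻¹ * x * a ∈ PJ cs h T X J' → J' = J := by
  unfold Ell
  refine forall_congr' fun J' => forall_congr' fun _ => forall_congr' fun a => ?_
  rw [mem_cj]

/-- **(EX)**, `Ell` form -/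
theorem exists_ell [Finite W] [Finite Y] {r : ℕ} (hr : r.Prime) (hrp : ¬ r ∣ p) {x : Y}
    (hx : x ∈ GG cs h T X) {k : ℕ} (hk : x ^ r ^ k = 1) :
    ∃ (g : Y) (J : Set I), g⁻¹ * x * g ∈ LJ cs h T X J ∧ Ell cs h T X J (g⁻¹ * x * g) := by
  obtain ⟨g, J, h1, h2⟩ := exists_elliptic R hr hrp hx hk
  exact ⟨g, J, h1, ell_iff.2 h2⟩

omit R in
/-- **(CO)**, `Ell` form -/
theorem Ell.dvd {r : ℕ} (hr : r.Prime) {J : Set I} {x : Y} (hE : Ell cs h T X J x) (hx : x ∈ LJ cs h T X J) {k : ℕ}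
    (hk : x ^ r ^ k = 1) {J' : Set I} (hJ' : J' ⊆ J) (hne : J' ≠ J) :
    r ∣ (PJ cs h T X J').relIndex (LJ cs h T X J) :=
  dvd_relIndex hr hx hk (fun J' hJ' a _ ha => ell_iff.1 hE J' hJ' a ha) hJ' hne

/-- an elliptic `r`-element of `L_J`, `J` nonempty, is not in a torus: `r ∣ |L_J : L_J ∩ B|` -/
theorem Ell.dvd_B {r : ℕ} (hr : r.Prime) {J : Set I} {x : Y} (hE : Ell cs h T X J x)
    (hx : x ∈ LJ cs h T X J) {k : ℕ} (hk : x ^ r ^ k = 1) (hne : J.Nonempty) :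
    r ∣ (PJ cs h T X ∅).relIndex (LJ cs h T X J) :=
  Ell.dvd hr hE hx hk (Set.empty_subset _) hne.ne_empty.symm

/-- `r ∤ |V_J|` -/
theorem not_dvd_card_VJ [Finite W] [Finite Y] {r : ℕ} (hr : r.Prime) (hrp : ¬ r ∣ p) (J : Set I) :
    ¬ r ∣ Nat.card (VJ cs h X J) := fun h1 => hrp (dvd_of_isPGroup hr (isPGroup_VJ R J) h1)

end Cfsg.Agent.H27.TS.Ex
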